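import Cfsg.Agent.H999.IF.EngB
import Cfsg.Agent.S0725

/-!
# S5719, alternating groups of degree `m ≥ 104`, primitive case (helper482)

* `tail_num` : `32 * 4 ^ (5 m) * m! ≤ (2 ^ k k! (m - 2k)!) ^ 6` for `m ≥ 104`;
* `card_conj` : the class of an involution in the symmetric group;
* `icl_le` : the class of `conjNormal g`;
* `tail_false`.
-/

set_option autoImplicit false
set_option linter.unusedSectionVars false

namespace Cfsg.Agent.H482.IF

open MulAction Subgroup Cfsg.Agent.H209.Fxy Cfsg.Agent.H999.IFB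
open scoped Nat

/-- the order of the centralizer of an involution with `k` transpositions in `S_m` -/
def cz (m k : ℕ) : ℕ := 2 ^ k * k.factorial * (m - 2 * k).factorial

theorem tail_104 : ∀ k < 53, 32 * 4 ^ (5 * 104) * Nat.factorial 104 ≤ (cz 104 k) ^ 6 := by
  decide +kernel

theorem tail_105 : ∀ k < 53, 32 * 4 ^ (5 * 105) * Nat.factorial 105 ≤ (cz 105 k) ^ 6 := by
  decide +kernel

theorem fifteen {m d : ℕ} (hm : 106 ≤ m) (hd : d ^ 6 < 1024 * m) : 15 * d ≤ m := by
  by_contra hcon
  have hcon : m < 15 * d := not_le.1 hcon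
  have h1 : m ^ 6 < (15 * d) ^ 6 := Nat.pow_lt_pow_left hcon (by norm_num)
  have h2 : (15 * d) ^ 6 = 11390625 * d ^ 6 := by rw [mul_pow]; norm_num
  have h3 : 11390625 * d ^ 6 < 11390625 * (1024 * m) := Nat.mul_lt_mul_of_pos_left hd (by norm_num)
  have h4 : m * m ^ 5 < m * 11664000000 := by
    calc m * m ^ 5 = m ^ 6 := by ring
      _ < 11390625 * (1024 * m) := by rw [h2] at h1; exact h1.trans h3
      _ = m * 11664000000 := by ring
  have h5 : m ^ 5 < 11664000000 := Nat.lt_of_mul_lt_mul_left h4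
  have h6 : 106 ^ 5 ≤ m ^ 5 := Nat.pow_le_pow_left hm 5
  norm_num at h6
  omega

theorem tail_num' (m : ℕ) (hm : 104 ≤ m) : ∀ k : ℕ, 2 * k ≤ m →
    32 * 4 ^ (5 * m) * m.factorial ≤ (cz m k) ^ 6 := by
  induction m using Nat.strong_induction_on with
  | _ m ih =>
    intro k hk
    rcases Nat.lt_or_ge m 106 with h1 | h1
    · have h2 : m = 104 ∨ m = 105 := by omega
      rcases h2 with rfl | rfl
      · exact tail_104 k (by omega)
      · exact tail_105 k (by omega)
    by_cases hd : (m - 2 * k) ^ 6 < 1024 * m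
    · have h3 := fifteen h1 hd
      have hk1 : 1 ≤ k := by omega
      obtain ⟨k', rfl⟩ : ∃ k', k = k' + 1 := ⟨k - 1, by omega⟩
      obtain ⟨m', rfl⟩ : ∃ m', m = m' + 2 := ⟨m - 2, by omega⟩
      have h4 := ih m' (by omega) (by omega) k' (by omega)
      have h5 : cz (m' + 2) (k' + 1) = (2 * (k' + 1)) * cz m' k' := by
        unfold cz
        rw [show m' + 2 - 2 * (k' + 1) = m' - 2 * k' by omega, Nat.factorial_succ, pow_succ]
        ring
      have h6 : 14 * (m' + 2) ≤ 15 * (2 * (k' + 1)) := by omega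
      have h7 : (14 * (m' + 2)) ^ 6 ≤ (15 * (2 * (k' + 1))) ^ 6 := Nat.pow_le_pow_left h6 6
      have h8 : 1048576 * ((m' + 2) * (m' + 1)) ≤ (2 * (k' + 1)) ^ 6 := by
        have h9 : (15 * (2 * (k' + 1))) ^ 6 = 11390625 * (2 * (k' + 1)) ^ 6 := by rw [mul_pow]; norm_num
        have h10 : (14 * (m' + 2)) ^ 6 = 7529536 * ((m' + 2) ^ 2 * (m' + 2) ^ 4) := by
          rw [mul_pow, ← pow_add]; norm_num
        have h11 : 106 ^ 4 ≤ (m' + 2) ^ 4 := Nat.pow_le_pow_left h1 4
        have h12 : (m' + 2) * (m' + 1) ≤ (m' + 2) ^ 2 := by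
          rw [pow_two]
          exact Nat.mul_le_mul_left _ (by omega)
        have h13 : 11390625 * (1048576 * ((m' + 2) * (m' + 1))) ≤ 11390625 * (2 * (k' + 1)) ^ 6 := by
          calc 11390625 * (1048576 * ((m' + 2) * (m' + 1)))
              ≤ 11390625 * (1048576 * (m' + 2) ^ 2) :=
                Nat.mul_le_mul_left _ (Nat.mul_le_mul_left _ h12)
            _ = (m' + 2) ^ 2 * 11943936000000 := by ring
            _ ≤ (m' + 2) ^ 2 * (7529536 * 106 ^ 4) := Nat.mul_le_mul_left _ (by norm_num)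
            _ ≤ (m' + 2) ^ 2 * (7529536 * (m' + 2) ^ 4) :=
                Nat.mul_le_mul_left _ (Nat.mul_le_mul_left _ h11)
            _ = (14 * (m' + 2)) ^ 6 := by rw [h10]; ring
            _ ≤ (15 * (2 * (k' + 1))) ^ 6 := h7
            _ = 11390625 * (2 * (k' + 1)) ^ 6 := h9
        exact Nat.le_of_mul_le_mul_left h13 (by norm_num)
      rw [h5, mul_pow]
      calc 32 * 4 ^ (5 * (m' + 2)) * (m' + 2).factorial
          = (1048576 * ((m' + 2) * (m' + 1))) * (32 * 4 ^ (5 * m') * m'.factorial) := by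
            rw [show 5 * (m' + 2) = 5 * m' + 10 by ring, pow_add, Nat.factorial_succ, Nat.factorial_succ]
            norm_num
            ring
        _ ≤ (2 * (k' + 1)) ^ 6 * cz m' k' ^ 6 := Nat.mul_le_mul h8 h4
    · have hd := not_lt.1 hd
      have hd1 : 1 ≤ m - 2 * k := by
        by_contra h0
        have : m - 2 * k = 0 := by omega
        rw [this] at hd
        norm_num at hd
        omega
      obtain ⟨m', rfl⟩ : ∃ m', m = m' + 1 := ⟨m - 1, by omega⟩
      have h4 := ih m' (by omega) (by omega) k (by omega)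
      have h5 : cz (m' + 1) k = (m' + 1 - 2 * k) * cz m' k := by
        unfold cz
        rw [show m' + 1 - 2 * k = (m' - 2 * k) + 1 by omega, Nat.factorial_succ]
        ring
      rw [h5, mul_pow]
      calc 32 * 4 ^ (5 * (m' + 1)) * (m' + 1).factorial
          = (1024 * (m' + 1)) * (32 * 4 ^ (5 * m') * m'.factorial) := by
            rw [show 5 * (m' + 1) = 5 * m' + 5 by ring, pow_add, Nat.factorial_succ]
            norm_num
            ring
        _ ≤ (m' + 1 - 2 * k) ^ 6 * cz m' k ^ 6 := Nat.mul_le_mul hd h4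

/-- The numerical tail. -/
theorem tail_num (m k : ℕ) (hm : 104 ≤ m) (hk : 2 * k ≤ m) :
    32 * 4 ^ (5 * m) * m.factorial ≤ (2 ^ k * k.factorial * (m - 2 * k).factorial) ^ 6 :=
  tail_num' m hm k hk

/-- The numerical tail, in the form of helper111. -/
theorem tail (m k s : ℕ) (hm : 104 ≤ m) (h : 2 * k + s = m) :
    32 * 4 ^ (5 * m) * m.factorial ≤ (2 ^ k * k.factorial * s.factorial) ^ 6 := by
  have h1 := tail_num m k hm (by omega)
  rwa [show m - 2 * k = s by omega] at h1

/-- The class of an involution of `S_m`. -/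
theorem card_conj {m : ℕ} (g : Equiv.Perm (Fin m)) (h2 : orderOf g = 2) :
    ∃ k, 1 ≤ k ∧ 2 * k ≤ m ∧ g.support.card = 2 * k ∧ g.cycleType = Multiset.replicate k 2 ∧
      Nat.card {h : Equiv.Perm (Fin m) | IsConj g h} * (2 ^ k * k.factorial * (m - 2 * k).factorial) =
        m.factorial := by
  obtain ⟨n, hn⟩ := Equiv.Perm.cycleType_prime_order (σ := g) (by rw [h2]; exact Nat.prime_two)
  rw [h2] at hn
  have hs : g.support.card = 2 * (n + 1) := by
    rw [← Equiv.Perm.sum_cycleType, hn, Multiset.sum_replicate, smul_eq_mul, mul_comm]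
  have hle : 2 * (n + 1) ≤ m := by
    rw [← hs]
    exact (Finset.card_le_univ _).trans (by rw [Fintype.card_fin])
  refine ⟨n + 1, by omega, hle, hs, hn, ?_⟩
  have h := Equiv.Perm.card_isConj_mul_eq g
  rw [hn, Multiset.sum_replicate, Multiset.prod_replicate, Fintype.card_fin, smul_eq_mul,
    Multiset.toFinset_replicate, if_neg (by omega), Finset.prod_singleton, Multiset.count_replicate_self] at h
  rw [← h, mul_comm (n + 1) 2]
  ring

theorem icl_le {m : ℕ} (g : Equiv.Perm (Fin m)) :
    (icl (MulAut.conjNormal g : MulAut (alternatingGroup (Fin m)))).ncard ≤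
      Nat.card {h : Equiv.Perm (Fin m) | IsConj g h} := by
  have h1 : icl (MulAut.conjNormal g : MulAut (alternatingGroup (Fin m))) ⊆
      (fun h : Equiv.Perm (Fin m) => (MulAut.conjNormal h : MulAut (alternatingGroup (Fin m)))) ''
        {h | IsConj g h} := by
    rintro τ ⟨x, rfl⟩
    refine ⟨(x : Equiv.Perm (Fin m)) * g * (x : Equiv.Perm (Fin m))⁻¹, isConj_iff.2 ⟨x, rfl⟩, ?_⟩
    change MulAut.conjNormal ((x : Equiv.Perm (Fin m)) * g * (x : Equiv.Perm (Fin m))⁻¹) = _
    rw [map_mul, map_mul, map_inv, MulAut.conjNormal_val]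
  refine (Set.ncard_le_ncard h1 (Set.toFinite _)).trans ?_
  exact Set.ncard_image_le (Set.toFinite _)

/-- **S5719, `A_m`, `m ≥ 104`, primitive case.** -/
theorem tail_false {m : ℕ} (hm : 104 ≤ m) {A : Subgroup (alternatingGroup (Fin m))}
    {Γ : Subgroup (MulAut (alternatingGroup (Fin m)))} (h : IF A Γ) (P : Subgroup (Equiv.Perm (Fin m)))
    (hprim : MulAction.IsPreprimitive P (Fin m)) (hnP : ¬ alternatingGroup (Fin m) ≤ P)
    (hA : ∀ a ∈ A, (a : Equiv.Perm (Fin m)) ∈ P) (g : Equiv.Perm (Fin m)) (h2 : orderOf g = 2)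
    (hg : MulAut.conjNormal g ∈ Γ) : False := by
  have hP : Nat.card P ≤ 4 ^ m := by
    have := Cfsg.Agent.S0725.result P hprim hnP
    rwa [Fintype.card_fin] at this
  have hAP : Nat.card A ≤ 4 ^ m := by
    refine le_trans ?_ hP
    apply Nat.card_le_card_of_injective (fun a : A => (⟨((a : alternatingGroup (Fin m)) : Equiv.Perm (Fin m)), hA a a.2⟩ : P))
    intro a b hab
    have hab' : ((a : alternatingGroup (Fin m)) : Equiv.Perm (Fin m)) = ((b : alternatingGroup (Fin m)) : Equiv.Perm (Fin m)) :=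
      congrArg (fun z : P => (z : Equiv.Perm (Fin m))) hab
    exact Subtype.ext (Subtype.ext hab')
  obtain ⟨k, hk1, hkm, -, -, hcl⟩ := card_conj g h2
  -- the order of the automorphism
  have hord : orderOf (MulAut.conjNormal g : MulAut (alternatingGroup (Fin m))) = 2 := by
    apply orderOf_eq_prime
    · rw [← map_pow]
      have : g ^ 2 = 1 := by rw [← h2]; exact pow_orderOf_eq_one g
      rw [this, map_one]
    · intro h1
      -- `g` centralizes `A_m`, so it is trivial
      have h3 : ∀ x : alternatingGroup (Fin m), g * x * g⁻¹ = x := by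
        intro x
        have := congrArg (fun σ : MulAut (alternatingGroup (Fin m)) => ((σ x : alternatingGroup (Fin m)) : Equiv.Perm (Fin m))) h1
        simpa [MulAut.conjNormal_apply] using this
      have hg1 : g ≠ 1 := by
        rintro rfl
        rw [orderOf_one] at h2
        omega
      obtain ⟨a, ha⟩ : ∃ a, g a ≠ a := by
        by_contra hc
        push Not at hc
        exact hg1 (Equiv.ext hc)
      -- two further points
      obtain ⟨b, hb⟩ : ∃ b : Fin m, b ∉ ({a, g a} : Finset (Fin m)) := by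
        by_contra hc
        push Not at hc
        have h4 : (Finset.univ : Finset (Fin m)) ⊆ {a, g a} := fun x _ => hc x
        have h5 := Finset.card_le_card h4
        rw [Finset.card_univ, Fintype.card_fin] at h5
        have h6 := Finset.card_le_two (a := a) (b := g a)
        omega
      obtain ⟨c, hc⟩ : ∃ c : Fin m, c ∉ ({a, g a, b} : Finset (Fin m)) := by
        by_contra hc
        push Not at hc
        have h4 : (Finset.univ : Finset (Fin m)) ⊆ {a, g a, b} := fun x _ => hc x
        have h5 := Finset.card_le_card h4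
        rw [Finset.card_univ, Fintype.card_fin] at h5
        have h6 := Finset.card_le_three (a := a) (b := g a) (c := b)
        omega
      simp only [Finset.mem_insert, Finset.mem_singleton, not_or] at hb hc
      -- the 3-cycle (g a, b, c)
      have h3c : (Equiv.swap (g a) b * Equiv.swap (g a) c).IsThreeCycle :=
        Equiv.Perm.isThreeCycle_swap_mul_swap_same (Ne.symm hb.2) (Ne.symm hc.2.1) (Ne.symm hc.2.2)
      have h7 := h3 ⟨_, h3c.mem_alternatingGroup⟩
      have h8 : g * (Equiv.swap (g a) b * Equiv.swap (g a) c) = (Equiv.swap (g a) b * Equiv.swap (g a) c) * g := by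
        have := congrArg (· * g) h7
        simpa [mul_assoc] using this
      have h9 := congrArg (fun σ : Equiv.Perm (Fin m) => σ a) h8
      simp only [Equiv.Perm.coe_mul, Function.comp_apply] at h9
      rw [Equiv.swap_apply_of_ne_of_ne (Ne.symm ha) (Ne.symm hc.1), Equiv.swap_apply_of_ne_of_ne (Ne.symm ha) (Ne.symm hb.1),
        Equiv.swap_apply_left, Equiv.swap_apply_of_ne_of_ne hc.2.1 hc.2.2] at h9
      exact hc.2.1 h9.symm
  have hE := (Cfsg.Agent.H999.IFB.IF.E2 h hg hord).2
  have hK := icl_le g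
  set K := Nat.card {h : Equiv.Perm (Fin m) | IsConj g h} with hKdef
  have hT : 2 * Nat.card (alternatingGroup (Fin m)) = m.factorial := by
    have : Nontrivial (Fin m) := Fin.nontrivial_iff_two_le.2 (by omega)
    have := two_mul_nat_card_alternatingGroup (α := Fin m)
    rw [this, Nat.card_perm, Nat.card_fin]
  have hidx : Nat.card A * A.index = Nat.card (alternatingGroup (Fin m)) := A.card_mul_index
  have h5 : m.factorial ≤ 2 * 4 ^ m * A.index := by
    rw [← hT, ← hidx, mul_assoc]
    exact Nat.mul_le_mul_left _ (Nat.mul_le_mul_right _ hAP)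
  have h6 : m.factorial ^ 5 < 32 * 4 ^ (5 * m) * K ^ 6 := by
    calc m.factorial ^ 5 ≤ (2 * 4 ^ m * A.index) ^ 5 := Nat.pow_le_pow_left h5 5
      _ = 32 * 4 ^ (5 * m) * A.index ^ 5 := by
          rw [mul_pow, mul_pow, ← pow_mul, mul_comm m 5]; norm_num
      _ < 32 * 4 ^ (5 * m) * K ^ 6 := by
          apply Nat.mul_lt_mul_of_pos_left (hE.trans_le (Nat.pow_le_pow_left hK 6))
          positivity
  have h7 := tail_num m k hm hkm
  set c := 2 ^ k * k.factorial * (m - 2 * k).factorial with hc
  have hcpos : 0 < c := by rw [hc]; positivity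
  have h8 : m.factorial ^ 5 * c ^ 6 < 32 * 4 ^ (5 * m) * m.factorial * m.factorial ^ 5 := by
    calc m.factorial ^ 5 * c ^ 6 < 32 * 4 ^ (5 * m) * K ^ 6 * c ^ 6 :=
          Nat.mul_lt_mul_of_pos_right h6 (pow_pos hcpos 6)
      _ = 32 * 4 ^ (5 * m) * (K * c) ^ 6 := by rw [mul_pow]; ring
      _ = 32 * 4 ^ (5 * m) * m.factorial * m.factorial ^ 5 := by rw [hcl]; ring
  have h9 : m.factorial ^ 5 * (32 * 4 ^ (5 * m) * m.factorial) ≤ m.factorial ^ 5 * c ^ 6 := Nat.mul_le_mul_left _ h7
  rw [mul_comm (32 * 4 ^ (5 * m) * m.factorial)] at h8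
  omega

end Cfsg.Agent.H482.IF
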